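import Cfsg.Agent.ClassicalGeometry.AutPSL.Main
import Cfsg.Agent.ClassicalGeometry.AutPSL.SylowU

/-!
# Diagonal elements of `PSL_n(F)`: conjugacy, automorphisms, Sylow subgroups of characteristic two
(TEAM FOUR, S4947, task FOUR-QE-BL)
-/

set_option autoImplicit false
set_option linter.unusedSectionVars false

namespace Cfsg.Agent.H907.Four

open Matrix
open Cfsg.Agent.ClassicalGeometry.AutPSL.Root
open Cfsg.Agent.ClassicalGeometry.AutPSL.Auto
open Cfsg.Agent.ClassicalGeometry.AutPSL.SylowU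

section gen

variable {ι F : Type*} [Fintype ι] [DecidableEq ι] [Field F]

/-- the diagonal matrix in `SL`. -/
def dg (d : ι → F) (h : ∏ i, d i = 1) : Matrix.SpecialLinearGroup ι F :=
  ⟨diagonal d, by rw [det_diagonal, h]⟩

theorem coe_dg (d : ι → F) (h : ∏ i, d i = 1) : (dg d h : Matrix ι ι F) = diagonal d := rfl

theorem dg_congr {d e : ι → F} (hde : d = e) (h : ∏ i, d i = 1) (h' : ∏ i, e i = 1) : dg d h = dg e h' := by
  subst hde; rfl

theorem ne_zero_of_prod {d : ι → F} (h : ∏ i, d i = 1) (i : ι) : d i ≠ 0 := by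
  intro h0
  rw [Finset.prod_eq_zero (Finset.mem_univ i) h0] at h
  exact zero_ne_one h

theorem cj_eq_iff {A : GL ι F} {x y : Matrix.SpecialLinearGroup ι F} :
    cj A x = y ↔ (A : Matrix ι ι F) * x = y * (A : Matrix ι ι F) := by
  constructor
  · intro h
    rw [← h, coe_cj, mul_assoc ((A : Matrix ι ι F) * x), ← Units.val_mul, inv_mul_cancel, Units.val_one, mul_one]
  · intro h
    apply Subtype.ext
    rw [coe_cj, h, mul_assoc, ← Units.val_mul, mul_inv_cancel, Units.val_one, mul_one]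

/-- diagonal matrices conjugate in `GL` are conjugate in `SL`. -/
theorem isConj_cj [Nonempty ι] (A : GL ι F) (d : ι → F) (h : ∏ i, d i = 1) :
    IsConj (dg d h) (cj A (dg d h)) := by
  obtain ⟨i0⟩ := (inferInstance : Nonempty ι)
  have hdA : (A : Matrix ι ι F).det ≠ 0 := (Matrix.isUnits_det_units A).ne_zero
  have hd : ((A : Matrix ι ι F) * diagonal (Function.update (1 : ι → F) i0 ((A : Matrix ι ι F).det)⁻¹)).det = 1 := by
    rw [det_mul, det_diagonal, Finset.prod_update_of_mem (Finset.mem_univ _)]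
    simp [hdA]
  obtain ⟨g, hg⟩ : ∃ g : Matrix.SpecialLinearGroup ι F, (g : Matrix ι ι F) =
      (A : Matrix ι ι F) * diagonal (Function.update (1 : ι → F) i0 ((A : Matrix ι ι F).det)⁻¹) := ⟨⟨_, hd⟩, rfl⟩
  rw [isConj_iff]
  refine ⟨g, ?_⟩
  rw [mul_inv_eq_iff_eq_mul]
  apply Subtype.ext
  rw [Matrix.SpecialLinearGroup.coe_mul, Matrix.SpecialLinearGroup.coe_mul, coe_cj, coe_dg, hg]
  have h1 : ((A⁻¹ : GL ι F) : Matrix ι ι F) * (A : Matrix ι ι F) = 1 := by
    rw [← Units.val_mul, inv_mul_cancel, Units.val_one]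
  have h2 : ∀ B : Matrix ι ι F, ((A⁻¹ : GL ι F) : Matrix ι ι F) * ((A : Matrix ι ι F) * B) = B := by
    intro B
    rw [← mul_assoc, h1, one_mul]
  rw [mul_assoc ((A : Matrix ι ι F) * diagonal d), h2, mul_assoc, mul_assoc, diagonal_mul_diagonal,
    diagonal_mul_diagonal]
  congr 2
  funext i
  exact mul_comm _ _

/-- permuting the diagonal entries. -/
theorem isConj_perm [Nonempty ι] (π : Equiv.Perm ι) (d : ι → F) (h : ∏ i, d i = 1)
    (h' : ∏ i, d (π i) = 1) : IsConj (dg d h) (dg (fun i => d (π i)) h') := by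
  have h0 : (π.permMatrix F).det ≠ 0 := by
    rw [det_permutation]
    rcases Int.units_eq_one_or (Equiv.Perm.sign π) with h | h <;> rw [h] <;> simp
  have h1 : cj (Matrix.GeneralLinearGroup.mkOfDetNeZero (π.permMatrix F) h0) (dg d h) =
      dg (fun i => d (π i)) h' := by
    rw [cj_eq_iff]
    change π.permMatrix F * diagonal d = diagonal _ * π.permMatrix F
    ext i j
    rw [mul_diagonal, diagonal_mul]
    change (π.toPEquiv.toMatrix : Matrix ι ι F) i j * d j = d (π i) * (π.toPEquiv.toMatrix : Matrix ι ι F) i j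
    rw [PEquiv.toMatrix_apply]
    by_cases hij : π i = j
    · subst hij
      simp
    · have h2 : j ∉ (π.toPEquiv i) := by
        simpa [Equiv.toPEquiv_apply] using hij
      rw [if_neg h2]
      simp
  rw [← h1]
  exact isConj_cj _ _ _

/-- the number of diagonal entries equal to `a`. -/
def cnt [DecidableEq F] (d : ι → F) (a : F) : ℕ := (Finset.univ.filter fun i => d i = a).card

theorem count_map [DecidableEq F] (d : ι → F) (a : F) :
    (Finset.univ.val.map d).count a = cnt d a := by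
  rw [Multiset.count_map, cnt, Finset.card_def, Finset.filter_val]
  congr 1
  apply Multiset.filter_congr
  intro i _
  exact eq_comm

theorem roots_diag (d : ι → F) : (diagonal d : Matrix ι ι F).charpoly.roots = Finset.univ.val.map d := by
  rw [charpoly_diagonal]
  have := Polynomial.roots_multiset_prod_X_sub_C (Finset.univ.val.map d)
  rw [Multiset.map_map] at this
  exact this

/-- conjugate diagonal elements of `PSL` have proportional diagonal entries. -/
theorem exists_cnt [Nonempty ι] [DecidableEq F] {d e : ι → F} {h : ∏ i, d i = 1} {h' : ∏ i, e i = 1}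
    (hc : IsConj (pr (dg d h)) (pr (dg e h'))) : ∃ c : F, c ≠ 0 ∧ ∀ a, cnt e (c * a) = cnt d a := by
  rw [isConj_iff] at hc
  obtain ⟨g, hg⟩ := hc
  obtain ⟨g, rfl⟩ := pr_surjective g
  rw [← map_mul, ← map_inv, ← map_mul] at hg
  obtain ⟨c, hce⟩ := exists_smul_of_pr_eq hg
  rw [coe_dg, Matrix.SpecialLinearGroup.coe_mul, Matrix.SpecialLinearGroup.coe_mul, coe_dg] at hce
  obtain ⟨i0⟩ := (inferInstance : Nonempty ι)
  have hc0 : c ≠ 0 := by
    rintro rfl
    rw [zero_smul] at hce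
    have h1 := congrFun (congrFun hce i0) i0
    rw [diagonal_apply_eq] at h1
    exact ne_zero_of_prod h' i0 h1
  have hce' : diagonal e = (g : Matrix ι ι F) * diagonal (fun i => c * d i) *
      ((g⁻¹ : Matrix.SpecialLinearGroup ι F) : Matrix ι ι F) := by
    rw [hce]
    have h1 : (diagonal fun i => c * d i) = c • diagonal d := by
      rw [← diagonal_smul]; rfl
    rw [h1, mul_smul_comm, smul_mul_assoc]
  have h2 : (diagonal e).charpoly = (diagonal (fun i => c * d i)).charpoly := by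
    rw [hce']
    have h3 := Matrix.charpoly_units_conj (Matrix.SpecialLinearGroup.toGL g) (diagonal (fun i => c * d i))
    have h4 : ((g⁻¹ : Matrix.SpecialLinearGroup ι F) : Matrix ι ι F) = (g : Matrix ι ι F)⁻¹ := by
      symm
      apply Matrix.inv_eq_right_inv
      rw [← Matrix.SpecialLinearGroup.coe_mul, mul_inv_cancel, Matrix.SpecialLinearGroup.coe_one]
    rw [h4]
    exact h3
  refine ⟨c, hc0, fun a => ?_⟩
  have h3 := congrArg Polynomial.roots h2
  rw [roots_diag, roots_diag] at h3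
  have h4 := congrArg (Multiset.count (c * a)) h3
  rw [count_map, count_map] at h4
  rw [h4, cnt, cnt]
  congr 1
  ext i
  simp only [Finset.mem_filter, Finset.mem_univ, true_and]
  exact mul_right_inj' hc0

theorem exists_range [Nonempty ι] {d e : ι → F} {h : ∏ i, d i = 1} {h' : ∏ i, e i = 1}
    (hc : IsConj (pr (dg d h)) (pr (dg e h'))) : ∃ c : F, c ≠ 0 ∧ ∀ i, ∃ j, e j = c * d i := by
  classical
  obtain ⟨c, h0, h1⟩ := exists_cnt hc
  refine ⟨c, h0, fun i => ?_⟩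
  have h2 : 0 < cnt e (c * d i) := by
    rw [h1]
    exact Finset.card_pos.2 ⟨i, Finset.mem_filter.2 ⟨Finset.mem_univ _, rfl⟩⟩
  obtain ⟨j, hj⟩ := Finset.card_pos.1 h2
  exact ⟨j, (Finset.mem_filter.1 hj).2⟩

theorem pr_dg_ne_one {d : ι → F} {h : ∏ i, d i = 1} {i j : ι} (hij : d i ≠ d j) : pr (dg d h) ≠ 1 := by
  rw [Ne, pr_eq_one_iff]
  intro hz
  obtain ⟨r, -, hr⟩ := Matrix.SpecialLinearGroup.mem_center_iff.1 hz
  rw [coe_dg] at hr
  have h1 : ∀ i, d i = r := by
    intro i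
    have h2 := congrFun (congrFun hr i) i
    rw [scalar_apply, diagonal_apply_eq, diagonal_apply_eq] at h2
    exact h2.symm
  exact hij ((h1 i).trans (h1 j).symm)

theorem dg_pow (d : ι → F) (h : ∏ i, d i = 1) (k : ℕ) (h' : ∏ i, d i ^ k = 1) :
    dg d h ^ k = dg (fun i => d i ^ k) h' := by
  apply Subtype.ext
  rw [Matrix.SpecialLinearGroup.coe_pow, coe_dg, diagonal_pow]
  rfl

theorem odd_orderOf [Fintype F] (h2 : (2 : F) = 0) (d : ι → F) (h : ∏ i, d i = 1) :
    Odd (orderOf (pr (dg d h))) := by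
  have h1 : ∀ i, d i ^ (Fintype.card F - 1) = 1 := fun i => FiniteField.pow_card_sub_one_eq_one _ (ne_zero_of_prod h i)
  have h3 : pr (dg d h) ^ (Fintype.card F - 1) = 1 := by
    rw [← map_pow, dg_pow d h _ (by simp [h1])]
    have h4 : dg (fun i => d i ^ (Fintype.card F - 1)) (by simp [h1]) = (1 : Matrix.SpecialLinearGroup ι F) := by
      apply Subtype.ext
      rw [coe_dg, Matrix.SpecialLinearGroup.coe_one, ← diagonal_one]
      congr 1
      funext i
      exact h1 i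
    rw [h4, map_one]
  have h5 : Odd (Fintype.card F - 1) := by
    have : CharP F 2 := CharTwo.of_one_ne_zero_of_two_eq_zero one_ne_zero h2
    obtain ⟨n, hp, hn⟩ := FiniteField.card F 2
    rw [hn]
    have h6 : 0 < (n : ℕ) := n.pos
    have h7 : Even (2 ^ (n : ℕ)) := (Nat.even_pow.2 ⟨even_two, h6.ne'⟩)
    have h8 : 1 ≤ 2 ^ (n : ℕ) := Nat.one_le_two_pow
    exact Nat.Even.sub_odd h8 h7 odd_one
  exact Odd.of_dvd_nat h5 (orderOf_dvd_of_pow_eq_one h3)

end gen

section fin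

variable {n : ℕ} {F : Type*} [Field F] [Fintype F]

theorem dg_conj_mem {d : Fin n → F} {h : ∏ i, d i = 1} {x : Matrix.SpecialLinearGroup (Fin n) F}
    (hx : x ∈ upper n F) : dg d h * x * (dg d h)⁻¹ ∈ upper n F := by
  obtain ⟨y, hy⟩ : ∃ y, y = dg d h * x * (dg d h)⁻¹ := ⟨_, rfl⟩
  rw [← hy, mem_upper]
  intro i j hij
  have h2 : y * dg d h = dg d h * x := by rw [hy]; group
  have h3 := congrArg (fun z : Matrix.SpecialLinearGroup (Fin n) F => (z : Matrix (Fin n) (Fin n) F) i j) h2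
  simp only [Matrix.SpecialLinearGroup.coe_mul, coe_dg, mul_diagonal, diagonal_mul] at h3
  rw [mem_upper.1 hx i j hij] at h3
  have h4 := ne_zero_of_prod h j
  split_ifs at h3 ⊢ with hh
  · subst hh
    rw [mul_one] at h3
    exact mul_right_cancel₀ h4 (h3.trans (one_mul _).symm)
  · rw [mul_zero] at h3
    exact (mul_eq_zero.1 h3).resolve_right h4

theorem dg_inv (d : Fin n → F) (h : ∏ i, d i = 1) (h' : ∏ i, (d i)⁻¹ = 1) :
    (dg d h)⁻¹ = dg (fun i => (d i)⁻¹) h' := by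
  rw [inv_eq_iff_mul_eq_one]
  apply Subtype.ext
  rw [Matrix.SpecialLinearGroup.coe_mul, coe_dg, coe_dg, diagonal_mul_diagonal, Matrix.SpecialLinearGroup.coe_one,
    ← diagonal_one]
  congr 1
  funext i
  exact mul_inv_cancel₀ (ne_zero_of_prod h i)

theorem dg_mem_normalizer {d : Fin n → F} {h : ∏ i, d i = 1}
    (P : Subgroup (Matrix.ProjectiveSpecialLinearGroup (Fin n) F)) (hP : P = (upper n F).map pr) :
    pr (dg d h) ∈ Subgroup.normalizer (P : Set (Matrix.ProjectiveSpecialLinearGroup (Fin n) F)) := by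
  have h' : ∏ i, (d i)⁻¹ = 1 := by
    rw [Finset.prod_inv_distrib, h, inv_one]
  rw [Subgroup.mem_normalizer_iff]
  intro x
  rw [hP]
  constructor
  · rintro ⟨y, hy, rfl⟩
    exact ⟨dg d h * y * (dg d h)⁻¹, dg_conj_mem hy, by rw [map_mul, map_mul, map_inv]⟩
  · rintro ⟨y, hy, hyx⟩
    refine ⟨dg _ h' * y * (dg _ h')⁻¹, dg_conj_mem hy, ?_⟩
    rw [← dg_inv d h h', map_mul, map_mul, hyx, inv_inv, map_inv]
    group

theorem fld_dg (σ : F ≃+* F) (d : Fin n → F) (h : ∏ i, d i = 1) (h' : ∏ i, σ (d i) = 1) :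
    fld σ (dg d h) = dg (fun i => σ (d i)) h' := by
  apply Subtype.ext
  ext i j
  rw [coe_fld_apply, coe_dg, coe_dg, diagonal_apply, diagonal_apply]
  split_ifs <;> simp

theorem itr_dg (d : Fin n → F) (h : ∏ i, d i = 1) (h' : ∏ i, (d i)⁻¹ = 1) :
    itr (dg d h) = dg (fun i => (d i)⁻¹) h' := by
  apply Subtype.ext
  rw [coe_itr, dg_inv d h h', coe_dg, diagonal_transpose]

/-- the field part of an automorphism of `PSL_n(F)`, on the diagonal elements whose inverse is obtained by a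
permutation. -/
theorem exists_aut (hn : 3 ≤ n) (α : MulAut (Matrix.ProjectiveSpecialLinearGroup (Fin n) F)) :
    ∃ σ : F ≃+* F, ∀ (d : Fin n → F) (h : ∏ i, d i = 1) (π : Equiv.Perm (Fin n)) (_ : ∀ i, d (π i) = (d i)⁻¹)
      (h' : ∏ i, σ (d i) = 1), IsConj (pr (dg (fun i => σ (d i)) h')) (α (pr (dg d h))) := by
  obtain ⟨p, hp⟩ := CharP.exists F
  have hp' : Fact p.Prime := ⟨CharP.char_is_prime F p⟩
  have : NeZero n := ⟨by omega⟩
  rcases Cfsg.Agent.ClassicalGeometry.AutPSL.Main.surj_three p hn α with ⟨A, σ, rfl⟩ | ⟨A, σ, rfl⟩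
  · refine ⟨σ, fun d h π _ h' => ?_⟩
    rw [lift_pr]
    refine MonoidHom.map_isConj _ ?_
    change IsConj _ (cj A (fld σ (dg d h)))
    rw [fld_dg σ d h h']
    exact isConj_cj _ _ _
  · refine ⟨σ, fun d h π hπ h' => ?_⟩
    rw [lift_pr]
    refine MonoidHom.map_isConj _ ?_
    change IsConj _ (cj A (fld σ (itr (dg d h))))
    have h1 : ∏ i, (d i)⁻¹ = 1 := by rw [Finset.prod_inv_distrib, h, inv_one]
    have h2 : ∏ i, d (π i) = 1 := by rw [Equiv.prod_comp π]; exact h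
    have h3 : ∏ i, σ (d (π i)) = 1 := by rw [← map_prod, h2, map_one]
    rw [itr_dg d h h1, dg_congr (funext fun i => (hπ i).symm) h1 h2, fld_dg σ _ h2 h3]
    exact (isConj_perm π (fun i => σ (d i)) h' h3).trans (isConj_cj _ _ _)

theorem isConj_aut (hn : 3 ≤ n) {α : MulAut (Matrix.ProjectiveSpecialLinearGroup (Fin n) F)} {σ : F ≃+* F}
    (hσ : ∀ (d : Fin n → F) (h : ∏ i, d i = 1) (π : Equiv.Perm (Fin n)) (_ : ∀ i, d (π i) = (d i)⁻¹)
      (h' : ∏ i, σ (d i) = 1), IsConj (pr (dg (fun i => σ (d i)) h')) (α (pr (dg d h))))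
    {d : Fin n → F} {h : ∏ i, d i = 1} {π : Equiv.Perm (Fin n)} (hπ : ∀ i, d (π i) = (d i)⁻¹)
    (hd : (∀ i, σ (d i) = d i) ∨ (∀ i, σ (d i) = (d i)⁻¹)) :
    IsConj (pr (dg d h)) (α (pr (dg d h))) := by
  have : NeZero n := ⟨by omega⟩
  have h1 : ∏ i, σ (d i) = 1 := by rw [← map_prod, h, map_one]
  refine IsConj.trans ?_ (hσ d h π hπ h1)
  rcases hd with hd | hd
  · rw [dg_congr (funext hd) h1 h]
  · have h2 : ∏ i, d (π i) = 1 := by rw [Equiv.prod_comp π]; exact h
    rw [dg_congr (funext fun i => (hd i).trans (hπ i).symm) h1 h2]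
    exact MonoidHom.map_isConj _ (isConj_perm π d h h2)

end fin

section el

variable {ι F : Type*} [Fintype ι] [DecidableEq ι] [Field F]

/-- the diagonal entries `l, l⁻¹, 1, …`. -/
def dl (i0 i1 : ι) (l : F) (i : ι) : F := if i = i0 then l else if i = i1 then l⁻¹ else 1

theorem dl_zero (i0 i1 : ι) (l : F) : dl i0 i1 l i0 = l := if_pos rfl

theorem dl_one {i0 i1 : ι} (h : i0 ≠ i1) (l : F) : dl i0 i1 l i1 = l⁻¹ := by
  rw [dl, if_neg h.symm, if_pos rfl]

theorem dl_other {i0 i1 i : ι} (h0 : i ≠ i0) (h1 : i ≠ i1) (l : F) : dl i0 i1 l i = 1 := by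
  rw [dl, if_neg h0, if_neg h1]

theorem prod_dl {i0 i1 : ι} (h : i0 ≠ i1) {l : F} (hl : l ≠ 0) : ∏ i, dl i0 i1 l i = 1 := by
  rw [← Finset.mul_prod_erase _ _ (Finset.mem_univ i0),
    ← Finset.mul_prod_erase _ _ (Finset.mem_erase.2 ⟨h.symm, Finset.mem_univ i1⟩), dl_zero, dl_one h,
    Finset.prod_eq_one, mul_one, mul_inv_cancel₀ hl]
  intro i hi
  rw [Finset.mem_erase, Finset.mem_erase] at hi
  exact dl_other hi.2.1 hi.1 l

theorem dl_swap {i0 i1 : ι} (h : i0 ≠ i1) (l : F) (i : ι) :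
    dl i0 i1 l (Equiv.swap i0 i1 i) = (dl i0 i1 l i)⁻¹ := by
  by_cases h0 : i = i0
  · subst h0; rw [Equiv.swap_apply_left, dl_one h, dl_zero]
  · by_cases h1 : i = i1
    · subst h1; rw [Equiv.swap_apply_right, dl_one h, dl_zero, inv_inv]
    · rw [Equiv.swap_apply_of_ne_of_ne h0 h1, dl_other h0 h1, inv_one]

theorem dl_map (σ : F ≃+* F) (i0 i1 : ι) (l : F) (i : ι) : σ (dl i0 i1 l i) = dl i0 i1 (σ l) i := by
  unfold dl
  split_ifs <;> simp

theorem dl_inv (i0 i1 : ι) (l : F) (i : ι) : (dl i0 i1 l i)⁻¹ = dl i0 i1 l⁻¹ i := by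
  unfold dl
  split_ifs <;> simp

theorem eq_of_range {i0 i1 i2 : ι} (h01 : i0 ≠ i1) (h02 : i0 ≠ i2) (h12 : i1 ≠ i2) (h2 : (2 : F) = 0)
    {l m : F} (hl0 : l ≠ 0) (hl1 : l ≠ 1) (hm0 : m ≠ 0) (hm1 : m ≠ 1)
    {h : ∏ i, dl i0 i1 l i = 1} {h' : ∏ i, dl i0 i1 m i = 1}
    (hc : IsConj (pr (dg _ h)) (pr (dg _ h'))) : m = l ∨ m = l⁻¹ := by
  have : Nonempty ι := ⟨i0⟩
  have sq1 : ∀ x : F, x * x = 1 → x = 1 := by
    intro x hx
    have : (x - 1) * (x - 1) = 0 := by linear_combination hx - (x - 1) * h2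
    have := mul_self_eq_zero.1 this
    linear_combination this
  obtain ⟨c, hc0, hr⟩ := exists_range hc
  have key : ∀ i, c * dl i0 i1 l i = m ∨ c * dl i0 i1 l i = m⁻¹ ∨ c * dl i0 i1 l i = 1 := by
    intro i
    obtain ⟨j, hj⟩ := hr i
    rw [← hj]
    unfold dl
    split_ifs
    · exact Or.inl rfl
    · exact Or.inr (Or.inl rfl)
    · exact Or.inr (Or.inr rfl)
  have k0 := key i0
  have k1 := key i1
  have k2 := key i2
  rw [dl_zero] at k0
  rw [dl_one h01] at k1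
  rw [dl_other h02.symm h12.symm, mul_one] at k2
  -- reduce to `c = m`
  have main : ∀ m : F, m ≠ 0 → m ≠ 1 → (m * l = m ∨ m * l = m⁻¹ ∨ m * l = 1) →
      (m * l⁻¹ = m ∨ m * l⁻¹ = m⁻¹ ∨ m * l⁻¹ = 1) → m = l ∨ m = l⁻¹ := by
    intro m hm0 hm1 a b
    have a1 : m * l ≠ m := fun h => hl1 (mul_left_cancel₀ hm0 (h.trans (mul_one m).symm))
    have b1 : m * l⁻¹ ≠ m := fun h => hl1 (inv_eq_one.1 (mul_left_cancel₀ hm0 (h.trans (mul_one m).symm)))
    rcases a with a | a | a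
    · exact absurd a a1
    · rcases b with b | b | b
      · exact absurd b b1
      · exfalso
        have e1 : l = l⁻¹ := mul_left_cancel₀ hm0 (a.trans b.symm)
        apply hl1
        apply sq1
        nth_rewrite 2 [e1]
        exact mul_inv_cancel₀ hl0
      · left
        exact mul_inv_eq_one₀ hl0 |>.1 b
    · right
      exact eq_inv_of_mul_eq_one_left a
  rcases k2 with k2 | k2 | k2
  · rw [k2] at k0 k1
    exact main m hm0 hm1 k0 k1
  · rw [k2] at k0 k1
    have hm0' : m⁻¹ ≠ 0 := inv_ne_zero hm0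
    have hm1' : m⁻¹ ≠ 1 := fun h => hm1 (inv_eq_one.1 h)
    have k0' : m⁻¹ * l = m⁻¹ ∨ m⁻¹ * l = m⁻¹⁻¹ ∨ m⁻¹ * l = 1 := by
      rw [inv_inv]; tauto
    have k1' : m⁻¹ * l⁻¹ = m⁻¹ ∨ m⁻¹ * l⁻¹ = m⁻¹⁻¹ ∨ m⁻¹ * l⁻¹ = 1 := by
      rw [inv_inv]; tauto
    rcases main m⁻¹ hm0' hm1' k0' k1' with h | h
    · right; rw [← h, inv_inv]
    · left; exact inv_injective h
  · rw [k2, one_mul] at k0
    rcases k0 with h | h | h
    · exact Or.inl h.symm
    · right; rw [h, inv_inv]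
    · exact absurd h hl1

/-- the diagonal entries `l, l⁻¹, l, l⁻¹, 1, …`. -/
def dll (i0 i1 i2 i3 : ι) (l : F) (i : ι) : F := dl i0 i1 l i * dl i2 i3 l i

theorem prod_dll {i0 i1 i2 i3 : ι} (h : i0 ≠ i1) (h' : i2 ≠ i3) {l : F} (hl : l ≠ 0) :
    ∏ i, dll i0 i1 i2 i3 l i = 1 := by
  unfold dll
  rw [Finset.prod_mul_distrib, prod_dl h hl, prod_dl h' hl, one_mul]

theorem not_conj_dll {i0 i1 i2 i3 : ι} (h01 : i0 ≠ i1) (h02 : i0 ≠ i2) (h03 : i0 ≠ i3) (h12 : i1 ≠ i2)
    (h13 : i1 ≠ i3) (h23 : i2 ≠ i3) {l : F} (hl : l ≠ 0) (hl1 : l ≠ l⁻¹)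
    {h : ∏ i, dll i0 i1 i2 i3 l i = 1} {h' : ∏ i, dl i0 i1 l i = 1} :
    ¬ IsConj (pr (dg _ h)) (pr (dg _ h')) := by
  classical
  have : Nonempty ι := ⟨i0⟩
  intro hc
  obtain ⟨c, hc0, hr⟩ := exists_cnt hc
  have small : ∀ a : F, 2 ≤ cnt (dl i0 i1 l) a → a = 1 := by
    intro a ha
    by_contra ha1
    obtain ⟨x, y, hx, hy, hxy⟩ := Finset.one_lt_card_iff.1 (show 1 < _ from ha)
    rw [Finset.mem_filter] at hx hy
    have e : ∀ z, dl i0 i1 l z = a → z = i0 ∨ z = i1 := by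
      intro z hz
      by_contra hno
      push Not at hno
      exact ha1 (hz.symm.trans (dl_other hno.1 hno.2 l))
    rcases e x hx.2 with rfl | rfl <;> rcases e y hy.2 with rfl | rfl
    · exact hxy rfl
    · exact hl1 ((dl_zero x y l).symm.trans (hx.2.trans (hy.2.symm.trans (dl_one h01 l))))
    · exact hl1 ((dl_zero y x l).symm.trans (hy.2.trans (hx.2.symm.trans (dl_one h01 l))))
    · exact hxy rfl
  have big : ∀ a : F, ∀ x y : ι, x ≠ y → dll i0 i1 i2 i3 l x = a → dll i0 i1 i2 i3 l y = a → c * a = 1 := by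
    intro a x y hxy hx hy
    apply small
    rw [hr]
    exact Finset.one_lt_card_iff.2 ⟨x, y, Finset.mem_filter.2 ⟨Finset.mem_univ _, hx⟩,
      Finset.mem_filter.2 ⟨Finset.mem_univ _, hy⟩, hxy⟩
  have b1 := big l i0 i2 h02 (by rw [dll, dl_zero, dl_other h02 h03, mul_one])
    (by rw [dll, dl_zero, dl_other h02.symm h12.symm, one_mul])
  have b2 := big l⁻¹ i1 i3 h13 (by rw [dll, dl_one h01, dl_other h12 h13, mul_one])
    (by rw [dll, dl_one h23, dl_other h03.symm h13.symm, one_mul])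
  exact hl1 (mul_left_cancel₀ hc0 (b1.trans b2.symm))

end el

end Cfsg.Agent.H907.Four
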